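import Mathlib.GroupTheory.Commutator.Basic
import Mathlib.Tactic

/-!
# A colouring argument in a group of nilpotency class at most two

Let `f` be an automorphism of odd order of `G` preserving a subgroup `P` of class at most two, and
let `V ≤ D ≤ P` where `D` has index two in `P`, `V` is an elementary abelian subgroup centralised
by `D` with `C_P(V) ≤ D`, and a commutator `z` of `P` acting as a transvection on `V` is never a
square or a commutator in `D`.  Then `V` lies in `f(D)` or `f(V)` lies in `D`.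
-/

set_option autoImplicit false

namespace Cfsg.Agent.Lib.InvNilp

open scoped commutatorElement

variable {G : Type*} [Group G]

section Bilinear

variable {P : Subgroup G}

theorem comm_mul_left (hcl : ∀ a ∈ P, ∀ b ∈ P, ∀ c ∈ P, ⁅a, b⁆ * c = c * ⁅a, b⁆)
    {a b c : G} (ha : a ∈ P) (hb : b ∈ P) (hc : c ∈ P) : ⁅a * b, c⁆ = ⁅a, c⁆ * ⁅b, c⁆ := by
  have h := hcl b hb c hc a ha
  have h' : a * ⁅b, c⁆ * a⁻¹ = ⁅b, c⁆ := by
    rw [← h]; group
  calc ⁅a * b, c⁆ = a * ⁅b, c⁆ * a⁻¹ * ⁅a, c⁆ := by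
        simp only [commutatorElement_def]; group
    _ = ⁅b, c⁆ * ⁅a, c⁆ := by rw [h']
    _ = ⁅a, c⁆ * ⁅b, c⁆ := by
        have := hcl a ha c hc ⁅b, c⁆ (by
          simp only [commutatorElement_def]
          exact P.mul_mem (P.mul_mem (P.mul_mem hb hc) (P.inv_mem hb)) (P.inv_mem hc))
        exact this.symm

theorem comm_mul_right (hcl : ∀ a ∈ P, ∀ b ∈ P, ∀ c ∈ P, ⁅a, b⁆ * c = c * ⁅a, b⁆)
    {a b c : G} (ha : a ∈ P) (hb : b ∈ P) (hc : c ∈ P) : ⁅a, b * c⁆ = ⁅a, b⁆ * ⁅a, c⁆ := by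
  have h1 := comm_mul_left hcl hb hc ha
  have e1 : ⁅a, b * c⁆ = ⁅b * c, a⁆⁻¹ := (commutatorElement_inv _ _).symm
  have e2 : ⁅a, b⁆ = ⁅b, a⁆⁻¹ := (commutatorElement_inv _ _).symm
  have e3 : ⁅a, c⁆ = ⁅c, a⁆⁻¹ := (commutatorElement_inv _ _).symm
  rw [e1, h1, e2, e3, mul_inv_rev]
  have := hcl a ha c hc ⁅a, b⁆ (by
    simp only [commutatorElement_def]
    exact P.mul_mem (P.mul_mem (P.mul_mem ha hb) (P.inv_mem ha)) (P.inv_mem hb))
  have e4 : ⁅c, a⁆⁻¹ = ⁅a, c⁆ := commutatorElement_inv _ _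
  have e5 : ⁅b, a⁆⁻¹ = ⁅a, b⁆ := commutatorElement_inv _ _
  rw [e4, e5]
  exact this

end Bilinear

theorem color_false (P D V : Subgroup G) (f : G ≃* G) (m : ℕ) (hm : Odd m)
    (hfP : ∀ x ∈ P, f x ∈ P) (hfP' : ∀ x ∈ P, f.symm x ∈ P)
    (hVD : V ≤ D) (hDP : D ≤ P)
    (hcl : ∀ a ∈ P, ∀ b ∈ P, ∀ c ∈ P, ⁅a, b⁆ * c = c * ⁅a, b⁆)
    (hVc : ∀ v ∈ V, ∀ d ∈ D, v * d = d * v)
    (hCV : ∀ p ∈ P, (∀ v ∈ V, p * v = v * p) → p ∈ D)
    (hidx : ∀ p ∈ P, ∀ q ∈ P, p ∉ D → q ∉ D → p * q ∈ D)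
    (hVe : ∀ v ∈ V, v * v = 1)
    (hPhi : ∀ x ∈ P, x ∉ D → ∀ z : G, z ≠ 1 → (∀ v ∈ V, ⁅x, v⁆ = 1 ∨ ⁅x, v⁆ = z) →
      (∀ d ∈ D, d * d ≠ z) ∧ (∀ d₁ ∈ D, ∀ d₂ ∈ D, ⁅d₁, d₂⁆ ≠ z))
    (u₀ : G) (hu₀ : u₀ ∈ V) (hu1 : f.symm u₀ ∉ D) (hu2 : f u₀ ∉ D)
    (hper : f^[m] u₀ = u₀) : False := by
  have hu₀P : u₀ ∈ P := hDP (hVD hu₀)
  set u₁ := f u₀ with hu₁
  have hu₁P : u₁ ∈ P := hfP _ hu₀P
  -- comm of products
  have hcomm_of : ∀ {a b c : G}, a * (b * c) = (b * c) * a → a * c = c * a → a * b = b * a := by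
    intro a b c h1 h2
    have : a * b * c = b * a * c := by
      calc a * b * c = a * (b * c) := by group
        _ = (b * c) * a := h1
        _ = b * (c * a) := by group
        _ = b * (a * c) := by rw [h2]
        _ = b * a * c := by group
    exact mul_right_cancel this
  have hcomm_of' : ∀ {a b c : G}, a * (b * c) = (b * c) * a → a * b = b * a → a * c = c * a := by
    intro a b c h1 h2
    have : b * (a * c) = b * (c * a) := by
      calc b * (a * c) = (b * a) * c := by group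
        _ = (a * b) * c := by rw [h2]
        _ = a * (b * c) := by group
        _ = (b * c) * a := h1
        _ = b * (c * a) := by group
    exact mul_left_cancel this
  have hne : u₀ * u₁ ≠ u₁ * u₀ := by
    intro hc
    have hw : f.symm u₀ ∈ P := hfP' _ hu₀P
    have : ∃ v ∈ V, ¬ (f.symm u₀ * v = v * f.symm u₀) := by
      by_contra hno
      push Not at hno
      exact hu1 (hCV _ hw hno)
    obtain ⟨v, hv, hvc⟩ := this
    have hvc' : u₀ * f v ≠ f v * u₀ := by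
      intro h
      apply hvc
      apply f.injective
      simpa using h
    have hv₁P : f v ∈ P := hfP _ (hDP (hVD hv))
    have hv₁D : f v ∉ D := fun hd => hvc' (hVc u₀ hu₀ _ hd)
    have hd := hidx _ hv₁P _ hu₁P hv₁D hu2
    exact hvc' (hcomm_of (hVc u₀ hu₀ _ hd) hc)
  set z : G := ⁅u₀, u₁⁆ with hz
  have hz1 : z ≠ 1 := by
    intro h
    exact hne (commutatorElement_eq_one_iff_mul_comm.1 h)
  have hu₀sq : u₀ * u₀ = 1 := hVe _ hu₀
  have hzsq : z * z = 1 := by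
    have h := comm_mul_left hcl hu₀P hu₀P hu₁P
    rw [hu₀sq, commutatorElement_one_left] at h
    exact h.symm
  have hzinv : z⁻¹ = z := by
    rw [inv_eq_iff_mul_eq_one]; exact hzsq
  -- Step B
  have hB0 : ∀ v ∈ V, ⁅u₀, f v⁆ = 1 ∨ ⁅u₀, f v⁆ = z := by
    intro v hv
    have hv₁P : f v ∈ P := hfP _ (hDP (hVD hv))
    by_cases hvD : f v ∈ D
    · left
      exact commutatorElement_eq_one_iff_mul_comm.2 (hVc u₀ hu₀ _ hvD)
    · right
      have hd := hidx _ hv₁P _ hu₁P hvD hu2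
      have h1 : ⁅u₀, f v * u₁⁆ = 1 := commutatorElement_eq_one_iff_mul_comm.2 (hVc u₀ hu₀ _ hd)
      rw [comm_mul_right hcl hu₀P hv₁P hu₁P] at h1
      have h2 : ⁅u₀, f v⁆ = z⁻¹ := eq_inv_of_mul_eq_one_left h1
      rw [h2, hzinv]
  have hB : ∀ v ∈ V, ∀ p ∈ P, ⁅p, f v⁆ = 1 ∨ ⁅p, f v⁆ = z := by
    intro v hv p hp
    have hv₁P : f v ∈ P := hfP _ (hDP (hVD hv))
    have hw : f.symm p ∈ P := hfP' _ hp
    by_cases hwD : f.symm p ∈ D
    · left
      have h1 := hVc v hv _ hwD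
      have h2 : f v * p = p * f v := by
        have := congrArg f h1
        simpa using this
      exact commutatorElement_eq_one_iff_mul_comm.2 h2.symm
    · have hd := hidx _ hw _ (hfP' _ hu₀P) hwD hu1
      have h1 := hVc v hv _ hd
      have h2 : f v * (p * u₀) = (p * u₀) * f v := by
        have := congrArg f h1
        simpa using this
      have h3 : ⁅p * u₀, f v⁆ = 1 := commutatorElement_eq_one_iff_mul_comm.2 h2.symm
      rw [comm_mul_left hcl hp hu₀P hv₁P] at h3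
      have h4 : ⁅p, f v⁆ = ⁅u₀, f v⁆⁻¹ := eq_inv_of_mul_eq_one_left h3
      rcases hB0 v hv with h5 | h5
      · left; rw [h4, h5, inv_one]
      · right; rw [h4, h5, hzinv]
  -- Step C
  have hC : ∀ v ∈ V, ∀ p ∈ P, ⁅p, v⁆ = 1 ∨ f ⁅p, v⁆ = z := by
    intro v hv p hp
    rcases hB v hv (f p) (hfP _ hp) with h | h
    · left
      apply f.injective
      rw [map_commutatorElement, h, map_one]
    · right
      rw [map_commutatorElement, h]
  have h10 : ⁅u₁, u₀⁆ = z := (commutatorElement_inv u₀ u₁).symm.trans hzinv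
  have hfz : f z = z := by
    rcases hC u₀ hu₀ u₁ hu₁P with h | h
    · rw [h10] at h
      exact absurd h hz1
    · rwa [h10] at h
  have hstar : ∀ v ∈ V, ∀ p ∈ P, ⁅p, v⁆ = 1 ∨ ⁅p, v⁆ = z := by
    intro v hv p hp
    rcases hC v hv p hp with h | h
    · exact Or.inl h
    · right
      apply f.injective
      rw [h, hfz]
  obtain ⟨hΦ1, hΦ2⟩ := hPhi u₁ hu₁P hu2 z hz1 (fun v hv => hstar v hv u₁ hu₁P)
  have hcent : ∀ p ∈ P, p * u₀ = u₀ * p → p ∈ D := by
    intro p hp hc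
    by_contra hpD
    have hd := hidx _ hp _ hu₁P hpD hu2
    exact hne (hcomm_of' (hVc u₀ hu₀ _ hd) hc.symm)
  -- the orbit of `u₀`
  let u : ℕ → G := fun k => f^[k] u₀
  have hu0 : u 0 = u₀ := rfl
  have husucc : ∀ k, u (k + 1) = f (u k) := fun k => Function.iterate_succ_apply' _ _ _
  have huP : ∀ k, u k ∈ P := by
    intro k
    induction k with
    | zero => exact hu₀P
    | succ k ih => rw [husucc]; exact hfP _ ih
  have husq : ∀ k, u k * u k = 1 := by
    intro k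
    induction k with
    | zero => exact hu₀sq
    | succ k ih => rw [husucc, ← map_mul, ih, map_one]
  have hucomm : ∀ k, ⁅u k, u (k + 1)⁆ = z := by
    intro k
    induction k with
    | zero => rfl
    | succ k ih =>
      have h1 : u (k + 1 + 1) = f (u (k + 1)) := husucc _
      have h2 : u (k + 1) = f (u k) := husucc _
      rw [h1, h2, ← map_commutatorElement, ← h2, ih, hfz]
  have hkey : ∀ k, ⁅u k, u₀⁆ = 1 ↔ Even k := by
    intro k
    induction k with
    | zero => simp [hu0]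
    | succ k ih =>
      have hnot1 : ¬ (⁅u k, u₀⁆ = 1 ∧ ⁅u (k + 1), u₀⁆ = 1) := by
        rintro ⟨h1, h2⟩
        have hd1 : u k ∈ D := hcent _ (huP k) (commutatorElement_eq_one_iff_mul_comm.1 h1)
        have hd2 : u (k + 1) ∈ D := hcent _ (huP _) (commutatorElement_eq_one_iff_mul_comm.1 h2)
        exact hΦ2 _ hd1 _ hd2 (hucomm k)
      have hnot2 : ¬ (⁅u k, u₀⁆ = z ∧ ⁅u (k + 1), u₀⁆ = z) := by
        rintro ⟨h1, h2⟩
        have hd : u k * u (k + 1) ∈ D := by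
          apply hcent _ (P.mul_mem (huP k) (huP _))
          apply commutatorElement_eq_one_iff_mul_comm.1
          rw [comm_mul_left hcl (huP k) (huP _) hu₀P, h1, h2, hzsq]
        apply hΦ1 _ hd
        rw [← hucomm k, commutatorElement_def]
        have e1 : (u k)⁻¹ = u k := inv_eq_of_mul_eq_one_left (husq k)
        have e2 : (u (k + 1))⁻¹ = u (k + 1) := inv_eq_of_mul_eq_one_left (husq _)
        rw [e1, e2]
        group
      rw [Nat.even_add_one, ← ih]
      rcases hstar u₀ hu₀ _ (huP k) with h1 | h1 <;> rcases hstar u₀ hu₀ _ (huP (k + 1)) with h2 | h2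
      · exact absurd ⟨h1, h2⟩ hnot1
      · rw [h1, h2]; simp [hz1]
      · rw [h1, h2]; simp [hz1]
      · exact absurd ⟨h1, h2⟩ hnot2
  have hfinal := (hkey m).1 (by
    have : u m = u₀ := hper
    rw [this, commutatorElement_self])
  exact (Nat.not_even_iff_odd.2 hm) hfinal

end Cfsg.Agent.Lib.InvNilp
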