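import Cfsg.Agent.Lib.Transfer.Basic
import Cfsg.Agent.Lib.Coprime.Action
import Cfsg.Agent.Lib.Core.Residual
import Mathlib.GroupTheory.FixedPointFree
import Mathlib.GroupTheory.Transfer

/-!
# Quotients with an elementary abelian Sylow 2-subgroup whose involutions have 2-group centralizers

If `T` is an elementary abelian, self-normalizing Sylow 2-subgroup of `Y` and the centralizer of each
nonidentity element of `T` contains no nontrivial element of odd order, then either `Y` has no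
nontrivial element of odd order, or `T` has order two and inverts each element of odd order.
-/

set_option autoImplicit false

namespace Cfsg.Agent.Lib.InvNilp

open Subgroup Cfsg
open Cfsg.Agent.Lib.Transfer.Basic Cfsg.Agent.Lib.Coprime.Action

universe u

theorem frob_two {Y : Type*} [Group Y] [Finite Y] (Q : Sylow 2 Y)
    (hexp : ∀ t ∈ (Q : Subgroup Y), t * t = 1)
    (hN : normalizer ((Q : Subgroup Y) : Set Y) ≤ (Q : Subgroup Y))
    (hfix : ∀ t ∈ (Q : Subgroup Y), t ≠ 1 → ∀ y : Y, y * t = t * y → (orderOf y).Coprime 2 → y = 1) :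
    (∀ y : Y, (orderOf y).Coprime 2 → y = 1) ∨
    ((∀ t ∈ (Q : Subgroup Y), ∀ s ∈ (Q : Subgroup Y), t ≠ 1 → s ≠ 1 → t = s) ∧
      ∀ t ∈ (Q : Subgroup Y), t ≠ 1 → ∀ y : Y, (orderOf y).Coprime 2 → t * y * t⁻¹ = y⁻¹) := by
  have hcomm : ∀ a ∈ (Q : Subgroup Y), ∀ b ∈ (Q : Subgroup Y), a * b = b * a := by
    intro a ha b hb
    have h1 : (a * b) * (a * b) = 1 := hexp _ ((Q : Subgroup Y).mul_mem ha hb)
    have h2 : a⁻¹ = a := inv_eq_of_mul_eq_one_left (hexp a ha)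
    have h3 : b⁻¹ = b := inv_eq_of_mul_eq_one_left (hexp b hb)
    have h4 : a * b = (a * b)⁻¹ := (inv_eq_of_mul_eq_one_left h1).symm
    rw [mul_inv_rev, h2, h3] at h4
    exact h4
  have hP : normalizer ((Q : Subgroup Y) : Set Y) ≤ centralizer ((Q : Subgroup Y) : Set Y) := by
    intro n hn
    rw [Subgroup.mem_centralizer_iff]
    intro t ht
    exact hcomm t ht n (hN hn)
  have hcompl := MonoidHom.ker_transferSylow_isComplement' Q hP
  set N : Subgroup Y := (MonoidHom.transferSylow Q hP).ker with hNdef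
  haveI : N.Normal := MonoidHom.normal_ker _
  have hmem : ∀ x : Y, x ∈ N ↔ Nat.Coprime (orderOf x) 2 := mem_complement_iff hcompl
  by_cases hall : ∀ y : Y, (orderOf y).Coprime 2 → y = 1
  · exact Or.inl hall
  · right
    push Not at hall
    obtain ⟨y₀, hy₀, hy₀1⟩ := hall
    have hinv : ∀ t ∈ (Q : Subgroup Y), t ≠ 1 → ∀ y : Y, (orderOf y).Coprime 2 → t * y * t⁻¹ = y⁻¹ := by
      intro t ht ht1 y hy
      have htt : t⁻¹ = t := inv_eq_of_mul_eq_one_left (hexp t ht)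
      let φ : N →* N := (MulAut.conjNormal t : N ≃* N).toMonoidHom
      have hφ : ∀ k : N, ((φ k : N) : Y) = t * k * t⁻¹ := fun k => MulAut.conjNormal_apply t k
      have hfpf : MonoidHom.FixedPointFree φ := by
        intro k hk
        have h1 : ((φ k : N) : Y) = k := congrArg Subtype.val hk
        rw [hφ] at h1
        have h2 : (k : Y) * t = t * k := by
          calc (k : Y) * t = (t * k * t⁻¹) * t := by rw [h1]
            _ = t * k := by group
        have h3 := hfix t ht ht1 k h2 ((hmem k).1 k.2)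
        exact Subtype.ext h3
      have hinvol : Function.Involutive φ := by
        intro k
        apply Subtype.ext
        rw [hφ, hφ, htt]
        have : t * t = 1 := hexp t ht
        calc t * (t * (k : Y) * t) * t = (t * t) * k * (t * t) := by group
          _ = k := by rw [this]; group
      have h1 := hfpf.coe_eq_inv_of_involutive hinvol
      have h2 := congrFun h1 ⟨y, (hmem y).2 hy⟩
      have h3 := congrArg Subtype.val h2
      rw [hφ] at h3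
      simpa using h3
    refine ⟨?_, hinv⟩
    intro t ht s hs ht1 hs1
    by_contra hne
    have hss : s⁻¹ = s := inv_eq_of_mul_eq_one_left (hexp s hs)
    have hts1 : t * s ≠ 1 := by
      intro h
      apply hne
      have := eq_inv_of_mul_eq_one_left h
      rwa [hss] at this
    have hc : y₀ * (t * s) = (t * s) * y₀ := by
      have h1 := hinv t ht ht1 y₀ hy₀
      have h2 := hinv s hs hs1 y₀ hy₀
      have h3 : (t * s) * y₀ * (t * s)⁻¹ = y₀ := by
        calc (t * s) * y₀ * (t * s)⁻¹ = t * (s * y₀ * s⁻¹) * t⁻¹ := by group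
          _ = t * y₀⁻¹ * t⁻¹ := by rw [h2]
          _ = (t * y₀ * t⁻¹)⁻¹ := by group
          _ = y₀ := by rw [h1, inv_inv]
      calc y₀ * (t * s) = ((t * s) * y₀ * (t * s)⁻¹) * (t * s) := by rw [h3]
        _ = (t * s) * y₀ := by group
    exact hy₀1 (hfix _ ((Q : Subgroup Y).mul_mem ht hs) hts1 y₀ hc hy₀)

variable {G : Type u} [Group G] [Finite G]

section Internal

variable (H E P : Subgroup G)

theorem subgroupOf_normal_aux (hEn : ∀ h ∈ H, ∀ e ∈ E, h * e * h⁻¹ ∈ E) : (E.subgroupOf H).Normal := by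
  constructor
  intro x hx g
  rw [Subgroup.mem_subgroupOf] at hx ⊢
  exact hEn g g.2 x hx

/-- If all elements of odd order of `H` lie in the normal subgroup `E` then `H = P E`. -/
theorem eq_mul_of_odd_mem (hodd : ∀ y ∈ H, (orderOf y).Coprime 2 → y ∈ E)
    (hEn : ∀ h ∈ H, ∀ e ∈ E, h * e * h⁻¹ ∈ E)
    (hPH : P ≤ H) (hP : IsPGroup 2 P) (hPs : ¬ 2 ∣ P.relIndex H) :
    ∀ h ∈ H, ∃ q ∈ P, h * q⁻¹ ∈ E := by
  haveI hnE : (E.subgroupOf H).Normal := subgroupOf_normal_aux H E hEn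
  haveI : Fact (Nat.Prime 2) := ⟨Nat.prime_two⟩
  let Y := ↥H ⧸ E.subgroupOf H
  let ρ : ↥H →* Y := QuotientGroup.mk' (E.subgroupOf H)
  have hρs : Function.Surjective ρ := QuotientGroup.mk'_surjective _
  have hρ1 : ∀ x : H, ρ x = 1 ↔ (x : G) ∈ E := by
    intro x
    rw [QuotientGroup.mk'_apply, QuotientGroup.eq_one_iff, Subgroup.mem_subgroupOf]
  obtain ⟨P', hP'⟩ := exists_sylow_of_isSylowIn (p := 2) (K := H) (Q := P) ⟨hPH, hP, hPs⟩
  have hY : IsPGroup 2 Y := by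
    intro yb
    obtain ⟨y, rfl⟩ := hρs yb
    obtain ⟨a, b, hab, hc, ⟨k, hk⟩, hb, -, -⟩ :=
      Cfsg.Agent.Lib.Core.Residual.exists_pPart_pPrimePart 2 y (isOfFinOrder_of_finite y)
    have hb1 : ρ b = 1 := by
      rw [hρ1]
      apply hodd _ b.2
      rwa [Subgroup.orderOf_coe]
    refine ⟨k, ?_⟩
    rw [← hab, map_mul, hb1, mul_one, ← map_pow, hk, map_one]
  let Q : Sylow 2 Y := P'.mapSurjective hρs
  have hQtop : (Q : Subgroup Y) = ⊤ := by
    have h1 : IsPGroup 2 (⊤ : Subgroup Y) := hY.to_subgroup _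
    exact (Q.3 h1 le_top).symm
  intro h hh
  have h1 : ρ ⟨h, hh⟩ ∈ (Q : Subgroup Y) := by rw [hQtop]; trivial
  have h2 : (Q : Subgroup Y) = (P' : Subgroup H).map ρ := rfl
  rw [h2] at h1
  obtain ⟨q, hq, hqe⟩ := h1
  refine ⟨q, ?_, ?_⟩
  · rw [← hP']
    exact ⟨q, hq, rfl⟩
  · have h3 : ρ (⟨h, hh⟩ * q⁻¹) = 1 := by
      rw [map_mul, map_inv, ← hqe]; simp
    exact (hρ1 _).1 h3

/-- The structure of `H` modulo `E`. -/
theorem frob_two_internal (hEn : ∀ h ∈ H, ∀ e ∈ E, h * e * h⁻¹ ∈ E)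
    (hPH : P ≤ H) (hP : IsPGroup 2 P) (hPs : ¬ 2 ∣ P.relIndex H)
    (hexp : ∀ p ∈ P, p * p ∈ E)
    (hN : ∀ n ∈ H, (∀ p ∈ P, ∃ q ∈ P, n * p * n⁻¹ * q⁻¹ ∈ E) → ∃ q ∈ P, n * q⁻¹ ∈ E)
    (hfix : ∀ t ∈ P, t ∉ E → ∀ y ∈ H, (orderOf y).Coprime 2 → t * y * t⁻¹ * y⁻¹ ∈ E → y ∈ E) :
    (∀ y ∈ H, (orderOf y).Coprime 2 → y ∈ E) ∨
    ((∀ t ∈ P, ∀ s ∈ P, t ∉ E → s ∉ E → t * s⁻¹ ∈ E) ∧
      ∀ t ∈ P, t ∉ E → ∀ y ∈ H, (orderOf y).Coprime 2 → t * y * t⁻¹ * y ∈ E) := by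
  haveI hnE : (E.subgroupOf H).Normal := subgroupOf_normal_aux H E hEn
  haveI : Fact (Nat.Prime 2) := ⟨Nat.prime_two⟩
  let Y := ↥H ⧸ E.subgroupOf H
  let ρ : ↥H →* Y := QuotientGroup.mk' (E.subgroupOf H)
  have hρs : Function.Surjective ρ := QuotientGroup.mk'_surjective _
  have hρ1 : ∀ x : H, ρ x = 1 ↔ (x : G) ∈ E := by
    intro x
    rw [QuotientGroup.mk'_apply, QuotientGroup.eq_one_iff, Subgroup.mem_subgroupOf]
  obtain ⟨P', hP'⟩ := exists_sylow_of_isSylowIn (p := 2) (K := H) (Q := P) ⟨hPH, hP, hPs⟩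
  let Q : Sylow 2 Y := P'.mapSurjective hρs
  have hQmem : ∀ t, t ∈ (Q : Subgroup Y) ↔ ∃ q : H, (q : G) ∈ P ∧ ρ q = t := by
    intro t
    constructor
    · rintro ⟨q, hq, hqe⟩
      refine ⟨q, ?_, hqe⟩
      rw [← hP']
      exact ⟨q, hq, rfl⟩
    · rintro ⟨q, hq, rfl⟩
      refine ⟨q, ?_, rfl⟩
      rw [← hP'] at hq
      obtain ⟨q', hq', he⟩ := hq
      have : q' = q := Subtype.ext he
      rwa [← this]
  -- lifting elements of odd order
  have hlift : ∀ yb : Y, (orderOf yb).Coprime 2 → ∃ y : H, (orderOf (y : G)).Coprime 2 ∧ ρ y = yb := by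
    intro yb hyb
    obtain ⟨y₀, rfl⟩ := hρs yb
    obtain ⟨a, b, hab, hc, ⟨k, hk⟩, hb, ha', -⟩ :=
      Cfsg.Agent.Lib.Core.Residual.exists_pPart_pPrimePart 2 y₀ (isOfFinOrder_of_finite y₀)
    refine ⟨b, ?_, ?_⟩
    · rwa [Subgroup.orderOf_coe]
    · have ha1 : ρ a = 1 := by
        obtain ⟨i, rfl⟩ := Subgroup.mem_zpowers_iff.1 ha'
        have h1 : (ρ y₀ ^ i) ^ 2 ^ k = 1 := by
          rw [← map_zpow, ← map_pow, hk, map_one]
        have h2 : (ρ y₀ ^ i) ^ orderOf (ρ y₀) = 1 := by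
          rw [← zpow_natCast, zpow_comm, zpow_natCast, pow_orderOf_eq_one, one_zpow]
        have hc2 : Nat.Coprime (2 ^ k) (orderOf (ρ y₀)) := Nat.Coprime.pow_left _ hyb.symm
        have h3 := Nat.eq_one_of_dvd_coprimes hc2 (orderOf_dvd_of_pow_eq_one h1)
          (orderOf_dvd_of_pow_eq_one h2)
        have h4 := orderOf_eq_one_iff.1 h3
        simpa using h4
      rw [← hab, map_mul, ha1, one_mul]
  have hmain := frob_two Q
    (by
      intro t ht
      obtain ⟨q, hq, rfl⟩ := (hQmem t).1 ht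
      rw [← map_mul]
      apply (hρ1 _).2
      exact hexp _ hq)
    (by
      intro nb hnb
      obtain ⟨n, rfl⟩ := hρs nb
      have h1 : ∀ p ∈ P, ∃ q ∈ P, (n : G) * p * (n : G)⁻¹ * q⁻¹ ∈ E := by
        intro p hp
        have h2 : ρ ⟨p, hPH hp⟩ ∈ (Q : Subgroup Y) := (hQmem _).2 ⟨⟨p, hPH hp⟩, hp, rfl⟩
        have h3 := (Subgroup.mem_normalizer_iff.1 hnb _).1 h2
        obtain ⟨q, hq, hqe⟩ := (hQmem _).1 h3
        refine ⟨q, hq, ?_⟩
        have h4 : ρ (n * ⟨p, hPH hp⟩ * n⁻¹ * q⁻¹) = 1 := by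
          rw [map_mul, map_mul, map_mul, map_inv, map_inv, hqe]; simp
        exact (hρ1 _).1 h4
      obtain ⟨q, hq, hqe⟩ := hN n n.2 h1
      refine (hQmem _).2 ⟨⟨q, hPH hq⟩, hq, ?_⟩
      have h5 : ρ (n * (⟨q, hPH hq⟩ : H)⁻¹) = 1 := (hρ1 _).2 hqe
      rw [map_mul, map_inv, mul_inv_eq_one] at h5
      exact h5.symm)
    (by
      intro tb ht ht1 yb hc hy
      obtain ⟨t, htP, rfl⟩ := (hQmem tb).1 ht
      obtain ⟨y, hy', rfl⟩ := hlift yb hy
      have ht' : (t : G) ∉ E := fun h => ht1 ((hρ1 _).2 h)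
      have h1 : ρ (t * y * t⁻¹ * y⁻¹) = 1 := by
        rw [map_mul, map_mul, map_mul, map_inv, map_inv, ← hc]; group
      have h2 := hfix t htP ht' y y.2 hy' ((hρ1 _).1 h1)
      exact (hρ1 _).2 h2)
  rcases hmain with h1 | ⟨h1, h2⟩
  · left
    intro y hy hyo
    apply (hρ1 ⟨y, hy⟩).1
    apply h1
    have h3 : orderOf (ρ ⟨y, hy⟩) ∣ orderOf y := by
      have := orderOf_map_dvd ρ (⟨y, hy⟩ : H)
      rwa [Subgroup.orderOf_mk] at this
    exact Nat.Coprime.coprime_dvd_left h3 hyo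
  · right
    refine ⟨?_, ?_⟩
    · intro t ht s hs htE hsE
      have h3 := h1 (ρ ⟨t, hPH ht⟩) ((hQmem _).2 ⟨_, ht, rfl⟩) (ρ ⟨s, hPH hs⟩) ((hQmem _).2 ⟨_, hs, rfl⟩)
        (fun h => htE ((hρ1 _).1 h)) (fun h => hsE ((hρ1 _).1 h))
      have h4 : ρ (⟨t, hPH ht⟩ * (⟨s, hPH hs⟩ : H)⁻¹) = 1 := by
        rw [map_mul, map_inv, h3]; group
      exact (hρ1 _).1 h4
    · intro t ht htE y hy hyo
      have h3 : orderOf (ρ ⟨y, hy⟩) ∣ orderOf y := by
        have := orderOf_map_dvd ρ (⟨y, hy⟩ : H)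
        rwa [Subgroup.orderOf_mk] at this
      have h4 := h2 (ρ ⟨t, hPH ht⟩) ((hQmem _).2 ⟨_, ht, rfl⟩) (fun h => htE ((hρ1 _).1 h))
        (ρ ⟨y, hy⟩) (Nat.Coprime.coprime_dvd_left h3 hyo)
      have h5 : ρ (⟨t, hPH ht⟩ * ⟨y, hy⟩ * (⟨t, hPH ht⟩ : H)⁻¹ * ⟨y, hy⟩) = 1 := by
        rw [map_mul, map_mul, map_mul, map_inv, h4]; group
      exact (hρ1 _).1 h5

end Internal

end Cfsg.Agent.Lib.InvNilp
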